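import Cfsg.Agent.BNPair.Parabolic

/-!
# The Weyl group of a (B, N)-pair is a Coxeter group
-/

set_option autoImplicit false

namespace Cfsg.Agent.BNPair

variable {G : Type*} [Group G] (P : Cfsg.BNPair G)

/-- Alternating product `a b a b …` with `k` factors. -/
def aprod {H : Type*} [Monoid H] : H → H → ℕ → H
  | _, _, 0 => 1
  | a, b, k + 1 => a * aprod b a k

theorem map_aprod {H K : Type*} [Monoid H] [Monoid K] (f : H →* K) (a b : H) (k : ℕ) :
    f (aprod a b k) = aprod (f a) (f b) k := by
  induction k generalizing a b with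
  | zero => simp [aprod]
  | succ k ih => simp [aprod, ih]

theorem aprod_eq_iff {H : Type*} [Group H] {a b : H} (ha : a * a = 1) (hb : b * b = 1) (k : ℕ) :
    aprod a b k = aprod b a k ↔ (a * b) ^ k = 1 := by
  suffices h : aprod a b k * (aprod b a k)⁻¹ = (a * b) ^ k by
    rw [← h, mul_inv_eq_one]
  induction k generalizing a b with
  | zero => simp [aprod]
  | succ k ih =>
    have ha' : a⁻¹ = a := inv_eq_of_mul_eq_one_left ha
    have hb' : b⁻¹ = b := inv_eq_of_mul_eq_one_left hb
    calc aprod a b (k + 1) * (aprod b a (k + 1))⁻¹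
        = a * (aprod b a k * (aprod a b k)⁻¹) * b⁻¹ := by simp [aprod, mul_assoc]
      _ = a * (b * a) ^ k * b := by rw [ih hb ha, hb']
      _ = (a * b) ^ (k + 1) := by
        have e : (b * a) ^ k = b * (a * b) ^ k * b := by
          have := conj_pow (i := k) (a := b) (b := a * b)
          rw [hb'] at this
          rw [← this, ← mul_assoc, mul_assoc, mul_assoc, hb, mul_one]
        rw [e, pow_succ']
        calc a * (b * (a * b) ^ k * b) * b = a * b * (a * b) ^ k * (b * b) := by group
          _ = _ := by rw [hb, mul_one]

/-- Alternating word `a b a b …` with `k` letters. -/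
def altList {α : Type*} : α → α → ℕ → List α
  | _, _, 0 => []
  | a, b, k + 1 => a :: altList b a k

theorem length_altList {α : Type*} (a b : α) (k : ℕ) : (altList a b k).length = k := by
  induction k generalizing a b with
  | zero => rfl
  | succ k ih => simp [altList, ih]

theorem prod_altList {α H : Type*} [Monoid H] (f : α → H) (a b : α) (k : ℕ) :
    ((altList a b k).map f).prod = aprod (f a) (f b) k := by
  induction k generalizing a b with
  | zero => rfl
  | succ k ih => simp [altList, aprod, ih]

theorem reduced_eq_altList (s t : P.S) (l : List P.S) (hl : ∀ x ∈ l, x = s ∨ x = t)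
    (hred : l.length = len P (wprod P l)) :
    l = altList s t l.length ∨ l = altList t s l.length := by
  induction l with
  | nil => left; rfl
  | cons a l ih =>
    have hl' : l.length = len P (wprod P l) := by
      refine le_antisymm ?_ (len_wprod_le P l)
      rw [List.length_cons, wprod_cons] at hred
      have := len_σ_mul_le P a (wprod P l)
      omega
    rcases l with _ | ⟨b, l⟩
    · rcases hl a (by simp) with rfl | rfl
      · left; rfl
      · right; rfl
    · have hab : a ≠ b := by
        rintro rfl
        simp only [wprod_cons, σ_mul_σ_mul, List.length_cons] at hred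
        have := len_wprod_le P l
        omega
      rcases ih (fun x hx => hl x (by simp [hx])) hl' with h | h <;>
        simp only [List.length_cons, altList, List.cons.injEq] at h <;> obtain ⟨rfl, h⟩ := h
      · rcases hl a (by simp) with rfl | rfl
        · exact absurd rfl hab
        · right
          show _ :: _ = _
          simp only [List.length_cons, altList]
          exact congrArg _ (congrArg _ h)
      · rcases hl a (by simp) with rfl | rfl
        · left
          simp only [List.length_cons, altList]
          exact congrArg _ (congrArg _ h)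
        · exact absurd rfl hab

theorem exists_split (J : Set G) (w : W P) :
    ∃ u v : W P, u ∈ WJ P J ∧ w = u * v ∧ len P w = len P u + len P v ∧
      ∀ s : P.S, (s : G) ∈ J → len P (σ P s * w) < len P w → len P (σ P s * u) < len P u := by
  classical
  have hex : ∃ k, ∃ u v : W P, u ∈ WJ P J ∧ w = u * v ∧ len P v = k :=
    ⟨_, 1, w, (WJ P J).one_mem, (one_mul w).symm, rfl⟩
  obtain ⟨u, v, hu, rfl, hv⟩ := Nat.find_spec hex
  have hmin : ∀ u' v' : W P, u' ∈ WJ P J → u * v = u' * v' → len P v ≤ len P v' :=
    fun u' v' hu' he => hv ▸ Nat.find_min' hex ⟨u', v', hu', he, rfl⟩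
  obtain ⟨lu, hluJ, hlu, hlul⟩ := exists_word_WJ P hu
  obtain ⟨lv, hlv, hlvl⟩ := exists_reduced P v
  obtain ⟨l', hsub, hl', hlen⟩ := exists_reduced_sublist P (lu ++ lv)
  obtain ⟨a, b, rfl, ha, hb⟩ := List.sublist_append_iff.1 hsub
  rw [wprod_append, wprod_append, hlu, hlv] at hl'
  rw [wprod_append, hlu, hlv] at hlen
  have haJ : wprod P a ∈ WJ P J := wprod_mem_WJ P fun s hs => hluJ s (ha.subset hs)
  have hblen : lv.length ≤ b.length := by
    have := hmin _ _ haJ hl'.symm
    have := len_wprod_le P b
    omega
  obtain rfl : b = lv := hb.eq_of_length_le hblen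
  have hau : wprod P a = u := by
    rw [hlv] at hl'
    exact mul_right_cancel hl'
  have hadd : len P (u * v) = len P u + len P v := by
    refine le_antisymm (len_mul_le P u v) ?_
    have := len_wprod_le P a
    rw [hau] at this
    rw [List.length_append] at hlen
    omega
  refine ⟨u, v, hu, rfl, hadd, fun s hs hdesc => ?_⟩
  have hex1 : (lu ++ b).length = len P (wprod P (lu ++ b)) := by
    rw [List.length_append, wprod_append, hlu, hlv]
    omega
  obtain ⟨i, hi, e⟩ := exchange P s (lu ++ b) hex1 (by rwa [wprod_append, hlu, hlv])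
  · rcases lt_or_ge i lu.length with h | h
    · rw [List.eraseIdx_append_of_lt_length h, wprod_append, wprod_append, hlu, hlv,
        ← mul_assoc] at e
      rw [mul_right_cancel e]
      have := len_wprod_le P (lu.eraseIdx i)
      rw [List.length_eraseIdx_of_lt h] at this
      omega
    · exfalso
      rw [List.eraseIdx_append_of_length_le h, wprod_append, wprod_append, hlu, hlv] at e
      have hs' : σ P s ∈ WJ P J := (σ_mem_WJ_iff P).2 hs
      have h1 := hmin (σ P s * u) (wprod P (b.eraseIdx (i - lu.length)))
        ((WJ P J).mul_mem hs' hu) (by rw [mul_assoc, ← e, σ_mul_σ_mul])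
      have h2 := len_wprod_le P (b.eraseIdx (i - lu.length))
      rw [List.length_append] at hi
      rw [List.length_eraseIdx_of_lt (by omega)] at h2
      omega

/-- Matsumoto's theorem for the Weyl group of a (B, N)-pair. -/
theorem matsumoto {H : Type*} [Group H] (f : P.S → H) (hsq : ∀ s, f s * f s = 1)
    (hrel : ∀ s t : P.S, (f s * f t) ^ orderOf (σ P s * σ P t) = 1)
    (l₁ l₂ : List P.S) (h : wprod P l₁ = wprod P l₂) (h₁ : l₁.length = len P (wprod P l₁))
    (h₂ : l₂.length = len P (wprod P l₂)) : (l₁.map f).prod = (l₂.map f).prod := by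
  suffices key : ∀ n : ℕ, ∀ l₁ l₂ : List P.S, wprod P l₁ = wprod P l₂ →
      l₁.length = len P (wprod P l₁) → l₂.length = len P (wprod P l₂) → l₁.length = n →
      (l₁.map f).prod = (l₂.map f).prod from key _ l₁ l₂ h h₁ h₂ rfl
  intro n
  induction n using Nat.strong_induction_on with
  | _ n IH =>
    intro l₁ l₂ h h₁ h₂ hn
    have same : ∀ (s : P.S) (m₁ m₂ : List P.S), wprod P (s :: m₁) = wprod P (s :: m₂) →
        (s :: m₁).length = len P (wprod P (s :: m₁)) →
        (s :: m₂).length = len P (wprod P (s :: m₂)) → (s :: m₁).length = n →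
        ((s :: m₁).map f).prod = ((s :: m₂).map f).prod := by
      intro s m₁ m₂ he hm₁ hm₂ hlen
      have hred : ∀ m : List P.S, (s :: m).length = len P (wprod P (s :: m)) →
          m.length = len P (wprod P m) := by
        intro m hm
        refine le_antisymm ?_ (len_wprod_le P m)
        have := len_σ_mul_le P s (wprod P m)
        rw [List.length_cons, wprod_cons] at hm
        omega
      simp only [List.map_cons, List.prod_cons]
      rw [IH m₁.length (by rw [List.length_cons] at hlen; omega) m₁ m₂
        (by simpa using he) (hred m₁ hm₁) (hred m₂ hm₂) rfl]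
    rcases l₁ with _ | ⟨s, m₁⟩
    · have : l₂ = [] := List.length_eq_zero_iff.1 (by rw [h₂, ← h]; simp)
      rw [this]
    rcases l₂ with _ | ⟨t, m₂⟩
    · exfalso
      rw [List.length_cons] at h₁
      rw [h] at h₁
      simp at h₁
    by_cases hst : s = t
    · subst hst
      exact same s m₁ m₂ h h₁ h₂ hn
    set w := wprod P (s :: m₁) with hw
    have hds : len P (σ P s * w) < len P w := by
      have := len_wprod_le P m₁
      rw [List.length_cons] at h₁
      rw [hw, wprod_cons, σ_mul_σ_mul, ← wprod_cons, ← hw]
      omega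
    have hdt : len P (σ P t * w) < len P w := by
      have := len_wprod_le P m₂
      rw [List.length_cons, ← h] at h₂
      rw [h, wprod_cons, σ_mul_σ_mul, ← wprod_cons, ← h]
      omega
    obtain ⟨u, v, hu, huv, hadd, hdesc⟩ := exists_split P {(s : G), (t : G)} w
    obtain ⟨lv, hlv, hlvl⟩ := exists_reduced P v
    have hword : ∀ a b : P.S, ((a : G) = s ∧ (b : G) = t ∨ (a : G) = t ∧ (b : G) = s) →
        len P (σ P a * w) < len P w → wprod P (altList a b (len P u)) = u := by
      intro a b hab hd
      have haJ : (a : G) ∈ ({(s : G), (t : G)} : Set G) := by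
        rcases hab with ⟨h1, -⟩ | ⟨h1, -⟩ <;> simp [h1]
      have hu' := hdesc a haJ hd
      obtain ⟨m, hmJ, hm, hml⟩ :=
        exists_word_WJ P ((WJ P _).mul_mem ((σ_mem_WJ_iff P).2 haJ) hu)
      have hlen : (a :: m).length = len P (wprod P (a :: m)) := by
        rw [wprod_cons, hm, σ_mul_σ_mul, List.length_cons]
        have := len_le_len_σ_mul P a u
        omega
      have hmem : ∀ x ∈ a :: m, x = a ∨ x = b := by
        intro x hx
        rcases List.mem_cons.1 hx with rfl | hx
        · exact Or.inl rfl
        · have := hmJ x hx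
          rcases hab with ⟨h1, h2⟩ | ⟨h1, h2⟩ <;> rcases this with h3 | h3
          · exact Or.inl (Subtype.ext (h3.trans h1.symm))
          · exact Or.inr (Subtype.ext (h3.trans h2.symm))
          · exact Or.inr (Subtype.ext (h3.trans h2.symm))
          · exact Or.inl (Subtype.ext (h3.trans h1.symm))
      have hne : a ≠ b := by
        rintro rfl
        rcases hab with ⟨h1, h2⟩ | ⟨h1, h2⟩
        · exact hst (Subtype.ext (h1.symm.trans h2))
        · exact hst (Subtype.ext (h2.symm.trans h1))
      rcases reduced_eq_altList P a b (a :: m) hmem hlen with h' | h'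
      · rw [wprod_cons, hm, σ_mul_σ_mul, List.length_cons] at hlen
        rw [List.length_cons, hlen] at h'
        rw [← h', wprod_cons, hm, σ_mul_σ_mul]
      · simp only [List.length_cons, altList, List.cons.injEq] at h'
        exact absurd h'.1 hne
    have hs' := hword s t (Or.inl ⟨rfl, rfl⟩) hds
    have ht' := hword t s (Or.inr ⟨rfl, rfl⟩) hdt
    have hF : ((altList s t (len P u)).map f).prod = ((altList t s (len P u)).map f).prod := by
      rw [prod_altList, prod_altList, aprod_eq_iff (hsq s) (hsq t)]
      have he : (σ P s * σ P t) ^ len P u = 1 := by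
        rw [← aprod_eq_iff (σ_mul_self P s) (σ_mul_self P t), ← prod_altList, ← prod_altList]
        exact hs'.trans ht'.symm
      obtain ⟨c, hc⟩ := orderOf_dvd_of_pow_eq_one he
      rw [hc, pow_mul, hrel, one_pow]
    have hupos : ∃ k, len P u = k + 1 :=
      Nat.exists_eq_succ_of_ne_zero (by have := hdesc s (by simp) hds; omega)
    obtain ⟨k, hk⟩ := hupos
    have hmk : ∀ a b : P.S, wprod P (altList a b (len P u)) = u →
        wprod P (altList a b (len P u) ++ lv) = w ∧
          (altList a b (len P u) ++ lv).length = len P w := by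
      intro a b hab
      rw [wprod_append, hab, hlv, List.length_append, length_altList, hlvl]
      exact ⟨huv.symm, hadd.symm⟩
    obtain ⟨hs1, hs2⟩ := hmk s t hs'
    obtain ⟨ht1, ht2⟩ := hmk t s ht'
    rw [hk] at hs1 hs2 ht1 ht2 hF
    rw [altList, List.cons_append] at hs1 hs2 ht1 ht2
    have hnw : n = len P w := by rw [← hn, h₁]
    rw [same s m₁ _ hs1.symm h₁ (hs2.trans (congrArg _ hs1.symm)) hn,
      same t m₂ _ (h.symm.trans ht1.symm) h₂ (ht2.trans (congrArg _ ht1.symm))
        (by rw [h₂, ← h, hnw])]
    rw [← List.cons_append, ← List.cons_append, List.map_append, List.map_append,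
      List.prod_append, List.prod_append]
    exact congrArg (· * _) hF

/-- The Coxeter matrix of the Weyl group. -/
noncomputable def coxMatrix : CoxeterMatrix P.S where
  M := Matrix.of fun s t => orderOf (σ P s * σ P t)
  isSymm := by
    ext s t
    simp only [Matrix.transpose_apply, Matrix.of_apply]
    rw [← orderOf_inv, mul_inv_rev, σ_inv, σ_inv]
  diagonal s := by simp [σ_mul_self]
  off_diagonal s t hst := by
    intro h
    simp only [Matrix.of_apply, orderOf_eq_one_iff] at h
    refine hst (σ_injective P ?_)
    calc σ P s = σ P s * σ P t * σ P t := (mul_σ_mul_σ P t _).symm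
      _ = σ P t := by rw [h, one_mul]

theorem exists_coxeterSystem :
    ∃ (M : CoxeterMatrix P.S) (cs : CoxeterSystem M (W P)), ∀ s : P.S, cs.simple s = σ P s := by
  classical
  let M := coxMatrix P
  let cs₀ := M.toCoxeterSystem
  have hσ : M.IsLiftable (σ P) := fun s t => pow_orderOf_eq_one _
  let φ : M.Group →* W P := cs₀.lift ⟨σ P, hσ⟩
  have hφ : ∀ s, φ (cs₀.simple s) = σ P s := fun s => cs₀.lift_apply_simple hσ s
  have hφw : ∀ l, φ (cs₀.wordProd l) = wprod P l := by
    intro l
    induction l with
    | nil => simp [CoxeterSystem.wordProd]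
    | cons a l ih => rw [CoxeterSystem.wordProd_cons, map_mul, ih, hφ, wprod_cons]
  choose rw' hrw hrwl using exists_reduced P
  let ψ : W P → M.Group := fun w => cs₀.wordProd (rw' w)
  have hwd : ∀ l : List P.S, l.length = len P (wprod P l) → cs₀.wordProd l = ψ (wprod P l) := by
    intro l hl
    exact matsumoto P cs₀.simple (fun s => cs₀.simple_mul_simple_self s)
      (fun s t => cs₀.simple_mul_simple_pow s t) l _ (hrw _).symm hl
      (by rw [hrwl, hrw])
  have hψ : ∀ s w, ψ (σ P s * w) = cs₀.simple s * ψ w := by
    intro s w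
    rcases len_σ_mul P s w with h | h
    · have := hwd (s :: rw' w) (by rw [List.length_cons, hrwl, wprod_cons, hrw, h])
      rw [CoxeterSystem.wordProd_cons, wprod_cons, hrw] at this
      exact this.symm
    · have := hwd (s :: rw' (σ P s * w))
        (by rw [List.length_cons, hrwl, wprod_cons, hrw, σ_mul_σ_mul, h])
      rw [CoxeterSystem.wordProd_cons, wprod_cons, hrw, σ_mul_σ_mul] at this
      rw [← this]
      show _ = cs₀.simple s * (cs₀.simple s * _)
      rw [← mul_assoc, cs₀.simple_mul_simple_self, one_mul]
  have hψ1 : ψ 1 = 1 := by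
    have := hwd [] (by simp)
    simpa using this.symm
  have hleft : ∀ x, ψ (φ x) = x := by
    intro x
    obtain ⟨l, rfl⟩ := cs₀.wordProd_surjective x
    rw [hφw]
    induction l with
    | nil => simpa [CoxeterSystem.wordProd] using hψ1
    | cons a l ih => rw [wprod_cons, hψ, ih, CoxeterSystem.wordProd_cons]
  have hbij : Function.Bijective φ :=
    ⟨Function.LeftInverse.injective hleft, fun w => by
      obtain ⟨l, rfl⟩ := exists_word P w
      exact ⟨_, hφw l⟩⟩
  refine ⟨M, cs₀.map (MulEquiv.ofBijective φ hbij), fun s => ?_⟩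
  show φ (cs₀.simple s) = σ P s
  exact hφ s

end Cfsg.Agent.BNPair
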