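import Cfsg.Agent.BNPair.Coxeter

/-!
# The Weyl group of a (B, N)-pair of rank two
-/

set_option autoImplicit false

namespace Cfsg.Agent.BNPair

variable {G : Type*} [Group G] (P : Cfsg.BNPair G)

theorem len_parity (l : List P.S) : len P (wprod P l) % 2 = l.length % 2 := by
  induction l with
  | nil => simp
  | cons s l ih =>
    rw [wprod_cons, List.length_cons]
    rcases len_σ_mul P s (wprod P l) with h | h <;> omega

theorem wprod_altList (s t : P.S) (k : ℕ) :
    wprod P (altList s t k) = aprod (σ P s) (σ P t) k := prod_altList _ _ _ _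

theorem mem_altList {α : Type*} {a b x : α} {k : ℕ} (h : x ∈ altList a b k) : x = a ∨ x = b := by
  induction k generalizing a b with
  | zero => simp [altList] at h
  | succ k ih =>
    rcases List.mem_cons.1 h with h | h
    · exact Or.inl h
    · exact (ih h).symm

theorem aprod_two_mul {H : Type*} [Monoid H] (x y : H) (j : ℕ) :
    aprod x y (2 * j) = (x * y) ^ j := by
  induction j with
  | zero => simp [aprod]
  | succ j ih =>
    show x * (y * aprod x y (2 * j)) = _
    rw [ih, pow_succ', mul_assoc]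

theorem aprod_two_mul_add_one {H : Type*} [Monoid H] (x y : H) (j : ℕ) :
    aprod x y (2 * j + 1) = (x * y) ^ j * x := by
  induction j with
  | zero => simp [aprod]
  | succ j ih =>
    show x * (y * aprod x y (2 * j + 1)) = _
    rw [ih, pow_succ']
    simp only [mul_assoc]

/-- The data of a rank-two situation. -/
structure IsPairGen (s t : P.S) : Prop where
  ne : s ≠ t
  cover : ∀ x : P.S, x = s ∨ x = t

namespace IsPairGen

variable {P} {s t : P.S} (h : IsPairGen P s t)
include h

theorem symm : IsPairGen P t s := ⟨h.ne.symm, fun x => (h.cover x).symm⟩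

theorem exists_alt (w : W P) :
    wprod P (altList s t (len P w)) = w ∨ wprod P (altList t s (len P w)) = w := by
  obtain ⟨l, hl, hlen⟩ := exists_reduced P w
  rcases reduced_eq_altList P s t l (fun x _ => h.cover x) (by rw [hl, hlen]) with e | e
  · left; rw [← hlen, ← e, hl]
  · right; rw [← hlen, ← e, hl]

theorem order_pos [Finite G] : 0 < orderOf (σ P s * σ P t) := orderOf_pos _

theorem one_lt_order [Finite G] : 1 < orderOf (σ P s * σ P t) := by
  have h0 := h.order_pos
  have h1 : orderOf (σ P s * σ P t) ≠ 1 := by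
    intro h1
    rw [orderOf_eq_one_iff] at h1
    exact h.ne (σ_injective P (by rw [← mul_σ_mul_σ P t (σ P s), h1, one_mul]))
  omega

theorem pow_eq_one_iff (k : ℕ) :
    (σ P s * σ P t) ^ k = 1 ↔ aprod (σ P s) (σ P t) k = aprod (σ P t) (σ P s) k := by
  rw [aprod_eq_iff (σ_mul_self P s) (σ_mul_self P t)]

omit h in
theorem order_comm (s t : P.S) : orderOf (σ P t * σ P s) = orderOf (σ P s * σ P t) := by
  rw [← orderOf_inv, mul_inv_rev, σ_inv, σ_inv]

omit h in
theorem inv_pow_eq (s t : P.S) (k : ℕ) :
    ((σ P s * σ P t) ^ k)⁻¹ = (σ P t * σ P s) ^ k := by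
  rw [← inv_pow, mul_inv_rev, σ_inv, σ_inv]

/-- Alternating words of length at most the order of `σ s * σ t` are reduced. -/
theorem len_alt {k : ℕ} (hk : k ≤ orderOf (σ P s * σ P t)) :
    len P (wprod P (altList s t k)) = k := by
  have hle : len P (wprod P (altList s t k)) ≤ k := by
    simpa [length_altList] using len_wprod_le P (altList s t k)
  have hpar := len_parity P (altList s t k)
  rw [length_altList] at hpar
  set l := len P (wprod P (altList s t k)) with hl
  by_contra hne
  have hlt : l < k := lt_of_le_of_ne hle hne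
  have hno : ∀ i, i ≠ 0 → i < orderOf (σ P s * σ P t) → (σ P s * σ P t) ^ i ≠ 1 :=
    fun i h1 h2 => pow_ne_one_of_lt_orderOf h1 h2
  have he := h.exists_alt (wprod P (altList s t k))
  rw [← hl] at he
  simp only [wprod_altList] at he
  rcases Nat.even_or_odd' k with ⟨a, rfl | rfl⟩ <;> rcases Nat.even_or_odd' l with ⟨b, hb | hb⟩ <;>
    rw [hb] at hlt he hpar <;> try omega
  · rw [aprod_two_mul, aprod_two_mul, aprod_two_mul] at he
    rcases he with e | e
    · refine hno (a - b) (by omega) (by omega) ?_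
      rw [pow_sub _ (by omega : b ≤ a), e, mul_inv_cancel]
    · refine hno (a + b) (by omega) (by omega) ?_
      rw [← inv_pow_eq, inv_eq_iff_mul_eq_one] at e
      rw [add_comm, pow_add, e]
  · rw [aprod_two_mul_add_one, aprod_two_mul_add_one, aprod_two_mul_add_one] at he
    rcases he with e | e
    · refine hno (a - b) (by omega) (by omega) ?_
      rw [pow_sub _ (by omega : b ≤ a), ← mul_right_cancel e, mul_inv_cancel]
    · refine hno (a + b + 1) (by omega) (by omega) ?_
      have e' : (σ P t * σ P s) ^ b * (σ P t * σ P s) = (σ P s * σ P t) ^ a := by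
        calc (σ P t * σ P s) ^ b * (σ P t * σ P s)
            = ((σ P t * σ P s) ^ b * σ P t) * σ P s := by rw [mul_assoc]
          _ = (σ P s * σ P t) ^ a * σ P s * σ P s := by rw [e]
          _ = _ := mul_σ_mul_σ P s _
      rw [← pow_succ, ← inv_pow_eq, inv_eq_iff_mul_eq_one] at e'
      rw [show a + b + 1 = b + 1 + a by omega, pow_add, e']

theorem len_le (w : W P) [Finite G] : len P w ≤ orderOf (σ P s * σ P t) := by
  set m := orderOf (σ P s * σ P t) with hm
  by_contra hlt
  push Not at hlt
  have hmpos := h.order_pos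
  rw [← hm] at hmpos
  have hb : aprod (σ P s) (σ P t) m = aprod (σ P t) (σ P s) m :=
    (h.pow_eq_one_iff m).1 (pow_orderOf_eq_one _)
  obtain ⟨d, hd⟩ : ∃ d, len P w = m + 1 + d := ⟨len P w - (m + 1), by omega⟩
  suffices key : ∀ a b : P.S, (a = s ∧ b = t ∨ a = t ∧ b = s) →
      ∀ d, len P (wprod P (altList a b (m + 1 + d))) < m + 1 + d by
    rcases h.exists_alt w with e | e
    · have := key s t (Or.inl ⟨rfl, rfl⟩) d
      rw [← hd, e] at this; omega
    · have := key t s (Or.inr ⟨rfl, rfl⟩) d
      rw [← hd, e] at this; omega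
  intro a b hab d
  induction d generalizing a b with
  | zero =>
    have hb' : aprod (σ P b) (σ P a) m = aprod (σ P a) (σ P b) m := by
      rcases hab with ⟨rfl, rfl⟩ | ⟨rfl, rfl⟩
      · exact hb.symm
      · exact hb
    obtain ⟨j, hj⟩ := Nat.exists_eq_succ_of_ne_zero hmpos.ne'
    have e : wprod P (altList a b (m + 1 + 0)) = wprod P (altList b a j) := by
      rw [wprod_altList, wprod_altList, add_zero]
      show σ P a * aprod (σ P b) (σ P a) m = _
      rw [hb', hj]
      exact σ_mul_σ_mul P a _
    rw [e]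
    have := len_wprod_le P (altList b a j)
    rw [length_altList] at this
    omega
  | succ d ih =>
    have h1 := ih b a (by tauto)
    have h2 := len_σ_mul_le P a (wprod P (altList b a (m + 1 + d)))
    rw [show m + 1 + (d + 1) = m + 1 + d + 1 by omega]
    show len P (wprod P (a :: altList b a (m + 1 + d))) < _
    rw [wprod_cons]
    omega

/-- The elements of the Weyl group. -/
theorem exists_form (w : W P) [Finite G] :
    ∃ k < orderOf (σ P s * σ P t),
      w = (σ P s * σ P t) ^ k ∨ w = (σ P s * σ P t) ^ k * σ P s := by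
  set m := orderOf (σ P s * σ P t) with hm
  have hmpos := h.order_pos
  rw [← hm] at hmpos
  have hneg : ∀ i, (σ P t * σ P s) ^ i = (σ P s * σ P t) ^ ((m - i % m) % m) := by
    intro i
    rw [← inv_pow_eq s t i, ← pow_mod_orderOf (σ P s * σ P t) i, ← hm,
      hm, pow_mod_orderOf (σ P s * σ P t) (orderOf _ - _), ← hm]
    refine inv_eq_of_mul_eq_one_right ?_
    rw [← pow_add, Nat.add_sub_cancel' (Nat.mod_lt _ hmpos).le, hm, pow_orderOf_eq_one]
  rcases h.exists_alt w with e | e <;> rw [wprod_altList] at e <;>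
    rcases Nat.even_or_odd' (len P w) with ⟨j, hj | hj⟩ <;> rw [hj] at e
  · rw [aprod_two_mul] at e
    exact ⟨j % m, Nat.mod_lt _ hmpos, Or.inl (by rw [hm, pow_mod_orderOf, e])⟩
  · rw [aprod_two_mul_add_one] at e
    exact ⟨j % m, Nat.mod_lt _ hmpos, Or.inr (by rw [hm, pow_mod_orderOf, e])⟩
  · rw [aprod_two_mul, hneg] at e
    exact ⟨_, Nat.mod_lt _ hmpos, Or.inl e.symm⟩
  · rw [aprod_two_mul_add_one] at e
    refine ⟨(m - (j + 1) % m) % m, Nat.mod_lt _ hmpos, Or.inr ?_⟩
    rw [← hneg, pow_succ, ← e, mul_assoc, mul_assoc, σ_mul_self, mul_one]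

theorem pow_ne_pow_mul (i j : ℕ) :
    (σ P s * σ P t) ^ i ≠ (σ P s * σ P t) ^ j * σ P s := by
  intro e
  have hc : Commute (σ P s) (σ P s * σ P t) := by
    have : σ P s = ((σ P s * σ P t) ^ j)⁻¹ * (σ P s * σ P t) ^ i := by
      rw [e, inv_mul_cancel_left]
    have key : Commute (((σ P s * σ P t) ^ j)⁻¹ * (σ P s * σ P t) ^ i) (σ P s * σ P t) :=
      ((Commute.pow_self (σ P s * σ P t) j).inv_left).mul_left
        (Commute.pow_self (σ P s * σ P t) i)
    rwa [← this] at key
  have h1 : σ P s * σ P t = σ P t * σ P s := by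
    have := hc.eq
    rw [σ_mul_σ_mul] at this
    calc σ P s * σ P t = σ P s * (σ P s * σ P t * σ P s) := by rw [← this]
      _ = _ := by rw [mul_assoc, σ_mul_σ_mul]
  have hsq : (σ P s * σ P t) * (σ P s * σ P t) = 1 := by
    nth_rw 2 [h1]
    rw [← mul_assoc, mul_σ_mul_σ, σ_mul_self]
  have hcases : ∀ i, (σ P s * σ P t) ^ i = 1 ∨ (σ P s * σ P t) ^ i = σ P s * σ P t := by
    intro i
    induction i with
    | zero => simp
    | succ i ih => rcases ih with h' | h' <;> simp [pow_succ, h', hsq]
  have hne1 : σ P s * σ P t ≠ 1 := fun h' =>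
    h.ne (σ_injective P (by rw [← mul_σ_mul_σ P t (σ P s), h', one_mul]))
  rcases hcases i with hi | hi <;> rcases hcases j with hj | hj <;> rw [hi, hj] at e
  · rw [one_mul] at e; exact σ_ne_one P s e.symm
  · rw [h1, mul_σ_mul_σ] at e; exact σ_ne_one P t e.symm
  · rw [one_mul, mul_eq_left] at e; exact σ_ne_one P t e
  · exact σ_ne_one P s (mul_eq_left.1 e.symm)

theorem card_W [Finite G] : Nat.card (W P) = 2 * orderOf (σ P s * σ P t) := by
  set m := orderOf (σ P s * σ P t) with hm
  have hbij : Function.Bijective (Sum.elim (fun k : Fin m => (σ P s * σ P t) ^ (k : ℕ))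
      (fun k : Fin m => (σ P s * σ P t) ^ (k : ℕ) * σ P s)) := by
    constructor
    · intro x y e
      rcases x with ⟨i, hi⟩ | ⟨i, hi⟩ <;> rcases y with ⟨j, hj⟩ | ⟨j, hj⟩ <;> simp only [Sum.elim_inl,
        Sum.elim_inr] at e
      · simp [pow_injOn_Iio_orderOf hi hj e]
      · exact absurd e (h.pow_ne_pow_mul i j)
      · exact absurd e.symm (h.pow_ne_pow_mul j i)
      · simp [pow_injOn_Iio_orderOf hi hj (mul_right_cancel e)]
    · intro w
      obtain ⟨k, hk, e | e⟩ := h.exists_form w
      · exact ⟨.inl ⟨k, hk⟩, e.symm⟩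
      · exact ⟨.inr ⟨k, hk⟩, e.symm⟩
  rw [← Nat.card_eq_of_bijective _ hbij, Nat.card_sum, Nat.card_fin]
  omega

theorem sum_W {M : Type*} [AddCommMonoid M] [Finite G] [Fintype (W P)] (f : W P → M) :
    ∑ w, f w = ∑ k ∈ Finset.range (orderOf (σ P s * σ P t)),
      (f ((σ P s * σ P t) ^ k) + f ((σ P s * σ P t) ^ k * σ P s)) := by
  set m := orderOf (σ P s * σ P t) with hm
  let e : Fin m ⊕ Fin m → W P := Sum.elim (fun k : Fin m => (σ P s * σ P t) ^ (k : ℕ))
      (fun k : Fin m => (σ P s * σ P t) ^ (k : ℕ) * σ P s)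
  have hinj : Function.Injective e := by
    intro x y he
    rcases x with ⟨i, hi⟩ | ⟨i, hi⟩ <;> rcases y with ⟨j, hj⟩ | ⟨j, hj⟩ <;>
      simp only [e, Sum.elim_inl, Sum.elim_inr] at he
    · simp [pow_injOn_Iio_orderOf hi hj he]
    · exact absurd he (h.pow_ne_pow_mul i j)
    · exact absurd he.symm (h.pow_ne_pow_mul j i)
    · simp [pow_injOn_Iio_orderOf hi hj (mul_right_cancel he)]
  have hbij : Function.Bijective e := by
    refine (Nat.bijective_iff_injective_and_card e).2 ⟨hinj, ?_⟩
    rw [h.card_W, Nat.card_sum, Nat.card_fin]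
    omega
  rw [← Fintype.sum_bijective e hbij (fun x => f (e x)) f (fun _ => rfl), Fintype.sum_sum_type,
    Finset.sum_add_distrib, ← Fin.sum_univ_eq_sum_range, ← Fin.sum_univ_eq_sum_range]
  simp [e]

/-- A function on the Weyl group built from a braided pair. -/
theorem exists_braidFun {H : Type*} [Monoid H] [Finite G] (x y : H)
    (hbraid : aprod x y (orderOf (σ P s * σ P t)) = aprod y x (orderOf (σ P s * σ P t))) :
    ∃ ρ : W P → H,
      (∀ k ≤ orderOf (σ P s * σ P t), ρ (wprod P (altList s t k)) = aprod x y k) ∧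
      (∀ k ≤ orderOf (σ P s * σ P t), ρ (wprod P (altList t s k)) = aprod y x k) := by
  classical
  set m := orderOf (σ P s * σ P t) with hm
  refine ⟨fun w => if wprod P (altList s t (len P w)) = w then aprod x y (len P w)
    else aprod y x (len P w), fun k hk => ?_, fun k hk => ?_⟩
  · simp only [h.len_alt hk, if_true]
  · have hlen := h.symm.len_alt (k := k) (by rwa [order_comm s t])
    simp only [hlen]
    split_ifs with he
    · rw [wprod_altList, wprod_altList, ← h.pow_eq_one_iff] at he
      obtain ⟨c, hc⟩ := orderOf_dvd_of_pow_eq_one he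
      rcases Nat.eq_zero_or_pos c with rfl | hc0
      · rw [mul_zero] at hc; subst hc; rfl
      · rw [← hm] at hc
        obtain rfl : c = 1 := by
          by_contra hc1
          have : m * 2 ≤ m * c := Nat.mul_le_mul_left m (by omega)
          have := h.order_pos
          rw [← hm] at this
          omega
        rw [mul_one] at hc; subst hc; exact hbraid
    · rfl

end IsPairGen

theorem exists_pairGen_of_rank_two (h : P.rank = 2) : ∃ s t : P.S, IsPairGen P s t := by
  obtain ⟨s, t, hne, hu⟩ := Nat.card_eq_two_iff.1 h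
  refine ⟨s, t, hne, fun x => ?_⟩
  have : x ∈ ({s, t} : Set P.S) := by rw [hu]; trivial
  simpa using this

end Cfsg.Agent.BNPair
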